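import Cfsg.Agent.AltCent.Fixed
import Cfsg.Agent.AltCent.TwoOne.Data
import Cfsg.Agent.AltCent.TwoOne.Reps
import Cfsg.Agent.AltCent.TwoOne.Terms0
import Cfsg.Agent.AltCent.TwoOne.Terms1
import Cfsg.Agent.AltCent.TwoOne.Terms2

/-! # TwoOne: conclusion (generated certificate data) -/

set_option autoImplicit false
set_option maxRecDepth 100000
set_option maxHeartbeats 4000000

namespace CfsgLib.AltCent.TwoOne

def terms : List Term := terms0 ++ terms1 ++ terms2

theorem sum_ok : eqMod 2 (termPairs 2 bases T B terms) [(0, 1)] [(1, 2), (2, 4), (3, 1), (4, 3), (6, 2), (7, 4), (8, 1), (9, 3), (10, 3), (11, 3), (12, 3), (13, 3), (14, 4), (15, 2), (16, 1), (17, 6), (18, 1), (19, 1), (20, 2), (21, 2), (22, 1), (23, 1), (24, 2), (25, 2), (27, 1), (29, 3), (31, 3), (32, 1), (33, 3), (34, 1), (35, 4), (36, 3), (37, 3), (38, 3), (39, 5), (40, 2), (41, 4), (42, 2), (43, 4), (44, 2), (45, 4), (46, 2), (47, 1), (48, 3), (49, 4), (50, 2), (51, 3), (52, 2), (53, 2), (54, 4), (55, 1), (56, 1), (57, 3), (58, 2), (59, 3), (60, 4),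 (61, 2), (63, 2), (64, 2), (65, 2), (66, 2), (67, 5), (68, 3), (69, 1), (70, 1), (71, 2), (72, 3), (73, 3), (74, 3), (75, 2), (76, 1), (77, 2), (78, 2), (79, 2), (80, 4), (81, 5), (82, 2), (83, 1), (84, 3), (85, 5), (86, 3), (87, 2), (88, 2), (89, 4), (90, 3), (91, 2), (92, 2), (93, 1), (94, 1), (95, 1), (96, 1), (97, 3), (98, 3), (99, 2), (100, 2), (101, 3), (102, 3), (103, 3), (104, 1), (105, 3), (106, 1), (107, 2), (108, 2), (109, 1), (110, 2), (111, 3), (112, 4), (113, 1), (114, 3), (115, 1), (116, 2), (117, 2), (118, 4), (119, 3), (120, 2), (121, 3), (122, 2), (123, 3), (124, 1), (125, 3), (126, 4), (127, 4), (128, 2), (129, 1), (130, 3), (131, 3), (132, 1), (133, 6), (134, 2), (135, 3), (136, 3), (137, 1), (138, 2), (139, 4), (140, 2), (141, 3), (142, 2), (143, 2), (144, 2), (145, 3), (146, 2), (147, 3), (148, 2), (149, 2), (150, 3), (151, 3), (152, 3), (153, 4), (154, 2), (155, 1), (156, 2), (157, 4), (158, 1), (159, 4), (160, 3), (161, 2), (162, 3), (163, 2), (164, 2), (165, 5), (166, 3), (167, 2), (168,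 3), (169, 2), (170, 1), (171, 1), (172, 4), (173, 4), (174, 2), (175, 3), (176, 3), (177, 4), (178, 2), (179, 3), (180, 3), (181, 3), (182, 2), (183, 3), (184, 3), (185, 1), (186, 3), (187, 4), (188, 3), (189, 3), (190, 4), (191, 2), (192, 3), (193, 3), (194, 1), (195, 1), (196, 1), (197, 2), (198, 2), (199, 4), (200, 2), (201, 2), (202, 2), (203, 1), (204, 3), (205, 4), (206, 3), (207, 2), (208, 2), (209, 3), (210, 2), (211, 3), (212, 2), (213, 2), (214, 3), (215, 3), (216, 4), (217, 3), (218, 2), (219, 5), (220, 3), (221, 2), (222, 2), (223, 2), (224, 2), (225, 2), (226, 2), (227, 2), (228, 2), (229, 2), (230, 2), (231, 3), (232, 1), (233, 1), (234, 3), (235, 1), (236, 4), (237, 1), (238, 3), (239, 2), (240, 2), (241, 2), (242, 3), (243, 2), (244, 3), (245, 1), (246, 2), (247, 2), (248, 4), (249, 1), (250, 3), (251, 1), (252, 3), (253, 2), (254, 3), (255, 3), (256, 2), (257, 2), (258, 3), (259, 1), (260, 2), (261, 2), (262, 3), (263, 1), (264, 3), (265, 3), (266, 3), (267, 1), (268, 1), (269, 2), (270, 2), (271,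 4), (272, 3), (273, 2), (274, 2), (275, 3), (276, 4), (277, 4), (278, 3), (279, 1), (280, 3), (281, 2), (282, 2), (283, 2), (284, 2), (285, 2), (286, 4), (287, 2), (288, 3), (289, 3), (290, 2), (291, 1), (292, 2), (293, 3), (294, 2), (295, 2), (296, 2), (297, 4), (298, 3), (299, 3), (300, 1), (301, 3), (302, 3), (303, 4), (304, 3), (305, 4), (306, 1), (307, 3), (308, 1), (309, 2), (310, 2), (311, 2), (312, 3), (313, 2), (314, 2), (315, 1), (316, 4), (317, 3), (318, 3), (319, 2), (320, 3)] [] = true := by decide +kernel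

theorem terms_ok : termsOK 9 bases tR cR T B terms = true := (termsOK_append _ _ (termsOK_append _ _ terms0_ok terms1_ok) terms2_ok)

variable {V : Type*} [AddCommGroup V] [DistribMulAction (alternatingGroup (Fin 9)) V]

/-- The table acts by scalars as soon as its generators do. -/
theorem acts (hp : ∀ x : V, 2 • x = 0) (v : V)
    (hg : ∀ g ∈ gens, el 9 g.1 • v = g.2 • v) : Acts (n := 9) v B := by
  have z := zero_ok
  simp only [Bool.and_eq_true] at z
  refine acts_of_actsOK (by norm_num) hp v B gens (fun g hgm => ⟨?_, hg g hgm⟩) steps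
    (Nat.eq_of_beq_eq_true z.1.1) (Nat.eq_of_beq_eq_true z.1.2) steps_ok
  have hr := goodTab_of_repsOK genWords rfl gens_ok
  simp only [gens, List.mem_cons, List.not_mem_nil, or_false] at hgm
  rcases hgm with rfl | rfl | rfl | rfl | rfl | rfl
  · exact (show get 0x987564312098321076549854763210987645320198765410329876542301 0 = 654820254465 by decide +kernel) ▸ hr 0 (by decide)
  · exact (show get 0x987564312098321076549854763210987645320198765410329876542301 1 = 654820249650 by decide +kernel) ▸ hr 1 (by decide)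
  · exact (show get 0x987564312098321076549854763210987645320198765410329876542301 2 = 654819275265 by decide +kernel) ▸ hr 2 (by decide)
  · exact (show get 0x987564312098321076549854763210987645320198765410329876542301 3 = 654252061200 by decide +kernel) ▸ hr 3 (by decide)
  · exact (show get 0x987564312098321076549854763210987645320198765410329876542301 4 = 653674968660 by decide +kernel) ▸ hr 4 (by decide)
  · exact (show get 0x987564312098321076549854763210987645320198765410329876542301 5 = 654804529440 by decide +kernel) ▸ hr 5 (by decide)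

/-- No nonzero vector satisfies the hypotheses. -/
theorem eq_zero (hp : ∀ x : V, 2 • x = 0) (hX : NoFix 9 V) (v : V)
    (hg : ∀ g ∈ gens, el 9 g.1 • v = g.2 • v) (h0 : bval (n := 9) v base0 = 0) : v = 0 := by
  have hB := acts hp v hg
  have z := zero_ok
  have hR := reps_ok
  simp only [Bool.and_eq_true] at z hR
  have hb : ∀ b ∈ bases, GoodTab 9 b.tbl b.cnt ∧ bval (n := 9) v b = 0 := by
    intro b hb
    simp only [bases, List.mem_append, List.mem_cons, List.not_mem_nil, or_false] at hb
    rcases hb with ((rfl) | hb) | rfl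
    · exact ⟨goodTab_of_repsOK baseWords0 rfl baseWords0_ok, h0⟩
    · exact fixesOK_spec (by norm_num) hp hX hB fixes fixes_ok b hb
    · exact trivBase_spec (by norm_num) hp (by norm_num) v
  have hT : GoodTab 9 T.tbl T.cnt := by
    have hs := sub_ok
    simp only [subOK, Bool.and_eq_true, List.all_eq_true, List.mem_range, Nat.blt_eq] at hs
    intro k hk
    rw [Nat.eq_of_beq_eq_true (hs.2 k hk).1.1.2]
    exact hB.good _ (hs.2 k hk).1.1.1
  exact eq_zero_of_cert (by norm_num) hp hB sub_ok (by decide) (Nat.eq_of_beq_eq_true z.2)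
    (termsOK_spec (by norm_num) hp hB hT tau_ok
      (goodTab_of_repsOK rWords (Nat.eq_of_beq_eq_true hR.1) hR.2) (fun b h => (hb b h).1)
      (fun b h => (hb b h).2) terms terms_ok) sum_ok

end CfsgLib.AltCent.TwoOne
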